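import Mathlib
import Cfsg.Agent.KFacts.MulSpor.NoDbl

/-!
# S3988: triples of the fourth Janko group (helper796)

Products of an involution and an element of order 3 of order 29, 31, 37, 43 in `J4`, checked in the 112-dimensional
representation over `GF(2)`.
-/

set_option autoImplicit false
set_option maxRecDepth 20000

namespace Cfsg.Agent.H796.PQR.JFourWords

open Cfsg.Agent.Lib.F2MatGroup Cfsg.Agent.J4.Rep112 Cfsg.Agent.J4.Final

/-- the straight line program -/
def ws : List (List ℕ) := [
  [2, 3, 0, 1, 0, 3, 1], [4, 0], [4, 5, 3, 5, 3, 5, 4, 5, 3], [3, 0], [5, 4, 6, 7, 5, 7, 5, 4, 6], [5, 0],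
  [8, 6, 9, 8, 9, 7, 9, 7, 9, 6, 7], [7, 0]]

/-- the relations -/
def es : List (List ℕ × List ℕ) := [([8, 8], []), ([11, 11], []), ([1, 1, 1], []), ([3, 3, 3], []), ([5, 5, 5], []),
  ([7, 7, 7], []), ([0], [8, 1]), ([2], [8, 3]), ([4], [8, 5]), ([6], [11, 7]),
  (List.replicate 43 0, []), (List.replicate 29 2, []), (List.replicate 31 4, []), (List.replicate 37 6, [])]

/-- the inequalities -/
def ns : List (List ℕ × List ℕ) := [([8], []), ([11], []), ([1], []), ([3], []), ([5], []), ([7], []), ([0], []),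
  ([2], []), ([4], []), ([6], [])]

theorem chk : check 112 codes ws es ns = true := by decide +kernel

theorem facts : (∀ p ∈ es, evG (runG ws gens) p.1 = evG (runG ws gens) p.2) ∧
    (∀ p ∈ ns, evG (runG ws gens) p.1 ≠ evG (runG ws gens) p.2) := by
  have h := check_sound (by norm_num) codes_gens chk
  rw [runG_map] at h
  simp only [evG_map] at h
  exact ⟨fun p hp => rho_injective (h.1 p hp), fun p hp h0 => h.2 p hp (congrArg rho h0)⟩

theorem evG_replicate {G : Type*} [Group G] (L : List G) (i : ℕ) (n : ℕ) :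
    evG L (List.replicate n i) = getG L i ^ n := by
  induction n with
  | zero => rw [List.replicate_zero, evG_nil, pow_zero]
  | succ n ih => rw [List.replicate_succ, evG_cons, ih, pow_succ']

/-- **J4 has `(2,3,p)`-triples for `p = 29, 31, 37, 43`** -/
theorem exists_triple {p : ℕ} (hp : p = 29 ∨ p = 31 ∨ p = 37 ∨ p = 43) :
    ∃ a b : Cfsg.Spor.J4, a * a = 1 ∧ a ≠ 1 ∧ b ^ 3 = 1 ∧ b ≠ 1 ∧ (a * b) ^ p = 1 ∧ a * b ≠ 1 := by
  obtain ⟨he, hn⟩ := facts
  generalize runG ws gens = L at he hn
  have one : ∀ i : ℕ, evG L [i] = getG L i := fun i => by rw [evG_cons, evG_nil, mul_one]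
  have e8 := he ([8, 8], []) (by simp [es])
  have e11 := he ([11, 11], []) (by simp [es])
  have e1 := he ([1, 1, 1], []) (by simp [es])
  have e3 := he ([3, 3, 3], []) (by simp [es])
  have e5 := he ([5, 5, 5], []) (by simp [es])
  have e7 := he ([7, 7, 7], []) (by simp [es])
  have p43 := he ([0], [8, 1]) (by simp [es])
  have p29 := he ([2], [8, 3]) (by simp [es])
  have p31 := he ([4], [8, 5]) (by simp [es])
  have p37 := he ([6], [11, 7]) (by simp [es])
  have q43 := he (List.replicate 43 0, []) (by simp [es])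
  have q29 := he (List.replicate 29 2, []) (by simp [es])
  have q31 := he (List.replicate 31 4, []) (by simp [es])
  have q37 := he (List.replicate 37 6, []) (by simp [es])
  have n8 := hn ([8], []) (by simp [ns])
  have n11 := hn ([11], []) (by simp [ns])
  have n1 := hn ([1], []) (by simp [ns])
  have n3 := hn ([3], []) (by simp [ns])
  have n5 := hn ([5], []) (by simp [ns])
  have n7 := hn ([7], []) (by simp [ns])
  have n0 := hn ([0], []) (by simp [ns])
  have n2 := hn ([2], []) (by simp [ns])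
  have n4 := hn ([4], []) (by simp [ns])
  have n6 := hn ([6], []) (by simp [ns])
  dsimp only at e8 e11 e1 e3 e5 e7 p43 p29 p31 p37 q43 q29 q31 q37 n8 n11 n1 n3 n5 n7 n0 n2 n4 n6
  rw [evG_replicate, evG_nil] at q43 q29 q31 q37
  simp only [evG_cons, evG_nil, mul_one] at e8 e11 e1 e3 e5 e7 p43 p29 p31 p37 n8 n11 n1 n3 n5 n7 n0 n2 n4 n6
  have cube : ∀ g : Cfsg.Spor.J4, g * (g * g) = 1 → g ^ 3 = 1 := fun g hg => by
    rw [pow_succ', pow_two]; exact hg
  rcases hp with rfl | rfl | rfl | rfl
  · exact ⟨_, _, e8, n8, cube _ e3, n3, by rw [← p29]; exact q29, by rw [← p29]; exact n2⟩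
  · exact ⟨_, _, e8, n8, cube _ e5, n5, by rw [← p31]; exact q31, by rw [← p31]; exact n4⟩
  · exact ⟨_, _, e11, n11, cube _ e7, n7, by rw [← p37]; exact q37, by rw [← p37]; exact n6⟩
  · exact ⟨_, _, e8, n8, cube _ e1, n1, by rw [← p43]; exact q43, by rw [← p43]; exact n0⟩

end Cfsg.Agent.H796.PQR.JFourWords
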