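import Mathlib
import Cfsg.Agent.H796.PQR.JFourWords
import Cfsg.Agent.H562.PQR.Iface
import Cfsg.Agent.J4.Pres
import Cfsg.Agent.S0364
import Cfsg.Agent.S0365
import Cfsg.Agent.S2042

/-!
# S3988: the row of the fourth Janko group (helper796)

`M24 ≤ J4` for `p = 3, 5, 7, 11, 23`, triples `(2, 3, p)` for `p = 29, 31, 37, 43`.
-/

set_option autoImplicit false

namespace Cfsg.Agent.H796.PQR.RowJFour

open Cfsg.Agent.H562.PQR
open Cfsg.Agent.J4.M24Hom Cfsg.Agent.J4.Rep112

theorem primes {p : ℕ} (hp : p.Prime) (h : p ∣ 86775571046077562880) :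
    p = 2 ∨ p = 3 ∨ p = 5 ∨ p = 7 ∨ p = 11 ∨ p = 23 ∨ p = 29 ∨ p = 31 ∨ p = 37 ∨ p = 43 := by
  have h1 : (86775571046077562880 : ℕ) = 2 ^ 21 * 3 ^ 3 * 5 * 7 * 11 ^ 3 * 23 * 29 * 31 * 37 * 43 := by norm_num
  rw [h1] at h
  have key : ∀ q : ℕ, q.Prime → p ∣ q → p = q := fun q hq hpq => (Nat.prime_dvd_prime_iff_eq hp hq).1 hpq
  rcases (Nat.Prime.dvd_mul hp).1 h with h | h
  · rcases (Nat.Prime.dvd_mul hp).1 h with h | h
    · rcases (Nat.Prime.dvd_mul hp).1 h with h | h
      · rcases (Nat.Prime.dvd_mul hp).1 h with h | h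
        · rcases (Nat.Prime.dvd_mul hp).1 h with h | h
          · rcases (Nat.Prime.dvd_mul hp).1 h with h | h
            · rcases (Nat.Prime.dvd_mul hp).1 h with h | h
              · rcases (Nat.Prime.dvd_mul hp).1 h with h | h
                · rcases (Nat.Prime.dvd_mul hp).1 h with h | h
                  · exact Or.inl (key 2 (by norm_num) (hp.dvd_of_dvd_pow h))
                  · exact Or.inr (Or.inl (key 3 (by norm_num) (hp.dvd_of_dvd_pow h)))
                · have := key 5 (by norm_num) h; omega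
              · have := key 7 (by norm_num) h; omega
            · have := key 11 (by norm_num) (hp.dvd_of_dvd_pow h); omega
          · have := key 23 (by norm_num) h; omega
        · have := key 29 (by norm_num) h; omega
      · have := key 31 (by norm_num) h; omega
    · have := key 37 (by norm_num) h; omega
  · have := key 43 (by norm_num) h; omega

theorem card : Nat.card Cfsg.Spor.J4 = 86775571046077562880 := Cfsg.Agent.J4.Final.card_J4

/-- **the row `J4`** -/
theorem row_J4 : RowOdd Cfsg.Spor.J4 := by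
  intro p hp hp2 hd
  rw [card] at hd
  have hfin : Finite Cfsg.Spor.J4 := Nat.finite_of_card_ne_zero (by rw [card]; norm_num)
  have hF : Fact p.Prime := ⟨hp⟩
  have small : p ∣ 244823040 → NotMin p Cfsg.Spor.J4 := by
    intro h24
    have hs : IsSimpleGroup Cfsg.M24 := Cfsg.Agent.S0365.result
    have hc : Nat.card Cfsg.M24 = 244823040 := Cfsg.Agent.S0364.result
    obtain ⟨φ, hX, hY⟩ := exists_hom Cfsg.Agent.J4.Pres.rels_xy
    have hxy : Cfsg.Agent.J4.Rep112.x ≠ 1 := fun h => by
      have h1 := Cfsg.Agent.J4.Lower.xg_ne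
      rw [h] at h1
      exact h1 (map_one _)
    have hinj : Function.Injective φ := by
      rw [← MonoidHom.ker_eq_bot_iff]
      rcases (MonoidHom.normal_ker φ).eq_bot_or_eq_top with h1 | h1
      · exact h1
      · exfalso
        apply hxy
        rw [← hX]
        have : XM ∈ φ.ker := by rw [h1]; trivial
        exact this
    have hna : ∃ a b : Cfsg.M24, a * b ≠ b * a := by
      by_contra hcon
      push Not at hcon
      have hcomm : ∀ a b : Cfsg.M24, a * b = b * a := hcon
      let _ : CommGroup Cfsg.M24 := { (inferInstance : Group Cfsg.M24) with mul_comm := hcomm }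
      have h1 := IsSimpleGroup.prime_card (α := Cfsg.M24)
      rw [hc] at h1
      norm_num at h1
    refine NotMin.of_injective φ hinj (not_isPSolvable_of_simple hna hp (by rw [hc]; exact h24)) ?_
    rw [hc, card]
    norm_num
  have big : (p = 29 ∨ p = 31 ∨ p = 37 ∨ p = 43) → Trip p Cfsg.Spor.J4 := by
    intro h
    obtain ⟨a, b, ha, ha1, hb, hb1, hab, hab1⟩ := JFourWords.exists_triple h
    refine ⟨2, 3, p, Or.inr (Or.inr rfl), Or.inl rfl, ?_⟩
    have ha2 : orderOf a = 2 := orderOf_eq_prime (by rw [pow_two]; exact ha) ha1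
    have hb3 : orderOf b = 3 := orderOf_eq_prime hb hb1
    have hc1 : orderOf (a * b) = p := orderOf_eq_prime hab hab1
    refine TripABC.of_mult (H80.Fpf.multDvd_of_cyclic one_ne_zero Cfsg.Agent.S2042.result)
      (fun s hs h1 => absurd (Nat.dvd_one.1 h1) hs.one_lt.ne') Nat.prime_two Nat.prime_three hp (by norm_num)
      (by rintro rfl; omega) (by rintro rfl; omega)
      (PE.of_orderOf Nat.prime_two ha2) (PE.of_orderOf Nat.prime_three hb3) (PE.of_orderOf hp hc1).inv ?_
    rw [mul_inv_cancel]
  rcases primes hp hd with rfl | rfl | rfl | rfl | rfl | rfl | h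
  · exact absurd rfl hp2
  · exact Or.inl (small (by norm_num))
  · exact Or.inl (small (by norm_num))
  · exact Or.inl (small (by norm_num))
  · exact Or.inl (small (by norm_num))
  · exact Or.inl (small (by norm_num))
  · exact Or.inr (big h)

end Cfsg.Agent.H796.PQR.RowJFour
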